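import Cfsg.Prelude.Def_G2
import Cfsg.Agent.Lib.Helper58.WrSyl.Defs

set_option autoImplicit false

/-! # Sylow 2-subgroups of `G₂(q)`, `q` odd: shared vocabulary -/

namespace Cfsg.Agent.Lib.Helper58.G2Syl

open Cfsg Cfsg.Lie
open scoped MatrixGroups

/-- linear automorphisms of `F⁸` -/
abbrev L8 (F : Type*) [Field F] := (Fin 8 → F) ≃ₗ[F] (Fin 8 → F)

instance finite_L8 (F : Type*) [Field F] [Finite F] : Finite (L8 F) := DFunLike.finite _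

/-- automorphisms of the Zorn algebra, as linear equivalences -/
def AutO (F : Type*) [Field F] : Subgroup (L8 F) where
  carrier := {f | ∀ x y, f (zornMul x y) = zornMul (f x) (f y)}
  mul_mem' {f g} hf hg := by
    intro x y
    change f (g (zornMul x y)) = zornMul (f (g x)) (f (g y))
    rw [hg, hf]
  one_mem' := fun _ _ => rfl
  inv_mem' {f} hf := by
    intro x y
    change f.symm (zornMul x y) = zornMul (f.symm x) (f.symm y)
    apply f.injective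
    rw [hf]
    simp

theorem mem_AutO {F : Type*} [Field F] {f : L8 F} :
    f ∈ AutO F ↔ ∀ x y, f (zornMul x y) = zornMul (f x) (f y) := Iff.rfl

/-- the idempotent `[[1, 0], [0, 0]]` -/
def e1 (F : Type*) [Field F] : Fin 8 → F := ![1, 0, 0, 0, 0, 0, 0, 0]

/-- the nontrivial idempotents: trace `1`, norm `0` -/
def Idem (F : Type*) [Field F] : Set (Fin 8 → F) :=
  {x | x 0 + x 7 = 1 ∧ x 0 * x 7 = x 1 * x 4 + x 2 * x 5 + x 3 * x 6}

/-- the stabiliser of `e1` in `AutO` -/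
def StabE (F : Type*) [Field F] : Subgroup (L8 F) where
  carrier := {f | f ∈ AutO F ∧ f (e1 F) = e1 F}
  mul_mem' {f g} hf hg := ⟨(AutO F).mul_mem hf.1 hg.1, by
    change f (g (e1 F)) = e1 F
    rw [hg.2, hf.2]⟩
  one_mem' := ⟨(AutO F).one_mem, rfl⟩
  inv_mem' {f} hf := ⟨(AutO F).inv_mem hf.1, by
    change f.symm (e1 F) = e1 F
    apply f.injective
    rw [hf.2]
    simp⟩

theorem mem_StabE {F : Type*} [Field F] {f : L8 F} :
    f ∈ StabE F ↔ f ∈ AutO F ∧ f (e1 F) = e1 F := Iff.rfl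

/-- the short root element `exp(D_c)`:
`(α, a, b, β) ↦ (α - c·b, a + (α - β) c - (c·b) c, b + c × a, β + c·b)` -/
def tauFun {F : Type*} [Field F] (c : Fin 3 → F) (x : Fin 8 → F) : Fin 8 → F :=
  ![x 0 - (c 0 * x 4 + c 1 * x 5 + c 2 * x 6),
    x 1 + (x 0 - x 7) * c 0 - (c 0 * x 4 + c 1 * x 5 + c 2 * x 6) * c 0,
    x 2 + (x 0 - x 7) * c 1 - (c 0 * x 4 + c 1 * x 5 + c 2 * x 6) * c 1,
    x 3 + (x 0 - x 7) * c 2 - (c 0 * x 4 + c 1 * x 5 + c 2 * x 6) * c 2,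
    x 4 + (c 1 * x 3 - c 2 * x 2),
    x 5 + (c 2 * x 1 - c 0 * x 3),
    x 6 + (c 0 * x 2 - c 1 * x 1),
    x 7 + (c 0 * x 4 + c 1 * x 5 + c 2 * x 6)]

/-- the swap `(α, a, b, β) ↦ (β, -b, -a, α)` -/
def omFun {F : Type*} [Field F] (x : Fin 8 → F) : Fin 8 → F :=
  ![x 7, -x 4, -x 5, -x 6, -x 1, -x 2, -x 3, x 0]

/-- block diagonal maps `(α, a, b, β) ↦ (α, A a, B b, β)` -/
def blkFun {F : Type*} [Field F] (A B : Matrix (Fin 3) (Fin 3) F) (x : Fin 8 → F) : Fin 8 → F :=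
  ![x 0, (A.mulVec ![x 1, x 2, x 3]) 0, (A.mulVec ![x 1, x 2, x 3]) 1,
    (A.mulVec ![x 1, x 2, x 3]) 2, (B.mulVec ![x 4, x 5, x 6]) 0, (B.mulVec ![x 4, x 5, x 6]) 1,
    (B.mulVec ![x 4, x 5, x 6]) 2, x 7]

/-! ### the Cayley-Dickson coordinates `O = M₂(F) ⊕ M₂(F) u` -/

/-- the quaternion part -/
def thX {F : Type*} [Field F] (x : Fin 8 → F) : Matrix (Fin 2) (Fin 2) F := !![x 0, x 1; x 4, x 7]

/-- the complementary part -/
def thY {F : Type*} [Field F] (x : Fin 8 → F) : Matrix (Fin 2) (Fin 2) F := !![x 2, x 6; x 3, -x 5]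

/-- the inverse of `x ↦ (thX x, thY x)` -/
def thInv {F : Type*} [Field F] (X Y : Matrix (Fin 2) (Fin 2) F) : Fin 8 → F :=
  ![X 0 0, X 0 1, Y 0 0, Y 1 0, X 1 0, -Y 1 1, Y 0 1, X 1 1]

/-- `(X, Y) ↦ (B X B⁻¹, A Y B⁻¹)` in the coordinates of `F⁸` -/
def phiFun {F : Type*} [Field F] (A B : GL (Fin 2) F) (x : Fin 8 → F) : Fin 8 → F :=
  thInv ((B : Matrix (Fin 2) (Fin 2) F) * thX x * ((B⁻¹ : GL (Fin 2) F) : Matrix (Fin 2) (Fin 2) F))
    ((A : Matrix (Fin 2) (Fin 2) F) * thY x * ((B⁻¹ : GL (Fin 2) F) : Matrix (Fin 2) (Fin 2) F))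

/-- the fibre product `S ×_det S` -/
def fibSub {G₀ A : Type*} [Group G₀] [CommGroup A] (δ : G₀ →* A) (S : Subgroup G₀) :
    Subgroup (G₀ × G₀) where
  carrier := {p | p.1 ∈ S ∧ p.2 ∈ S ∧ δ p.1 = δ p.2}
  mul_mem' {p r} hp hr := ⟨S.mul_mem hp.1 hr.1, S.mul_mem hp.2.1 hr.2.1, by
    simp [hp.2.2, hr.2.2]⟩
  one_mem' := ⟨S.one_mem, S.one_mem, rfl⟩
  inv_mem' {p} hp := ⟨S.inv_mem hp.1, S.inv_mem hp.2.1, by simp [hp.2.2]⟩

theorem mem_fibSub {G₀ A : Type*} [Group G₀] [CommGroup A] {δ : G₀ →* A} {S : Subgroup G₀}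
    {p : G₀ × G₀} : p ∈ fibSub δ S ↔ p.1 ∈ S ∧ p.2 ∈ S ∧ δ p.1 = δ p.2 := Iff.rfl

/-- all Sylow 2-subgroups have elementary abelian abelianization -/
def SylPC2 (G : Type*) [Group G] : Prop := ∀ P : Sylow 2 G, WrSyl.PowComm 2 (P : Subgroup G)

end Cfsg.Agent.Lib.Helper58.G2Syl
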