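import Cfsg.Agent.Lib.Helper58.G2Syl.Defs
import Cfsg.Agent.Lib.Helper58.SlSyl.Small
import Cfsg.Agent.Lib.Helper28.SlSyl.L2b
import Cfsg.Agent.Lib.Helper12.WrSyl.W1
import Cfsg.Agent.Lib.Helper12.WrSyl.T4
import Cfsg.Agent.Lib.Helper23.WrSyl.V4

set_option autoImplicit false

namespace Cfsg.Agent.Lib.Helper58.G2Syl

open Cfsg Cfsg.Lie Cfsg.Agent.Lib.Helper58.WrSyl Cfsg.Agent.Lib.Helper98.WrSyl
  Cfsg.Agent.Lib.Helper58.SlSyl Cfsg.Agent.Lib.Helper28.SlSyl Cfsg.Agent.Lib.Helper12.WrSyl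
  Cfsg.Agent.Lib.Helper23.WrSyl
open scoped MatrixGroups
open Matrix.GeneralLinearGroup (scalar det)

theorem exists_embed_mon2 (F : Type*) [Field F] :
    ∃ Φ : Wr Fˣ 2 →* GL (Fin 2) F, Function.Injective Φ ∧
      (∀ w, det (Φ w) = sgnU F 2 w.right * ∏ i, w.left i) ∧
      ∀ l : Fˣ, Φ (SemidirectProduct.inl (fun _ => l)) = scalar (Fin 2) l := by
  refine ⟨((reHom (Equiv.punitProd (Fin 2))).comp
    (wmHom (((Matrix.scalar PUnit.{1}).toMonoidHom).comp (Units.coeHom F)) 2)).toHomUnits, ?_, ?_, ?_⟩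
  · apply toHomUnits_injective
    refine (reHom_injective _).comp (wmHom_injective _ (fun a b h => ?_) 2)
    apply Units.ext
    exact Matrix.scalar_inj.1 h
  · intro w
    apply Units.ext
    rw [Matrix.GeneralLinearGroup.val_det_apply, MonoidHom.coe_toHomUnits, MonoidHom.comp_apply,
      reHom_apply, Matrix.det_reindex_self, wmHom_apply, det_wm, Fintype.card_punit, pow_one,
      Units.val_mul, Units.coe_prod]
    congr 1
    apply Finset.prod_congr rfl
    intro i _
    simp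
  · intro l
    apply Units.ext
    rw [MonoidHom.coe_toHomUnits, MonoidHom.comp_apply, reHom_apply, wmHom_apply,
      Matrix.GeneralLinearGroup.coe_scalar]
    ext i j
    simp only [Matrix.reindex_apply, Matrix.submatrix_apply, wm_apply]
    by_cases hij : i = j
    · subst hij
      simp
    · simp [hij]

theorem perm_fin_two (σ : Equiv.Perm (Fin 2)) : σ = 1 ∨ σ = Equiv.swap 0 1 := by
  revert σ
  decide

theorem sgnU_swap (F : Type*) [Field F] : sgnU F 2 (Equiv.swap 0 1) = -1 := by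
  apply Units.ext
  simp [sgnU]


theorem kx_mem {A : Type*} [CommGroup A] (Q : Subgroup A) (x : A) (hx : x ∈ Q) :
    (SemidirectProduct.inl ![x, x⁻¹] : Wr A 2) ∈ ⁅stdSub 2 Q ⊤, stdSub 2 Q ⊤⁆ := by
  have h1 : (SemidirectProduct.inl ![x, 1] : Wr A 2) ∈ stdSub 2 Q ⊤ := by
    rw [mem_stdSub]
    refine ⟨fun i => ?_, Subgroup.mem_top _⟩
    fin_cases i
    · simpa using hx
    · simpa using Q.one_mem
  have h2 : (SemidirectProduct.inr (Equiv.swap 0 1) : Wr A 2) ∈ stdSub 2 Q ⊤ := by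
    rw [mem_stdSub]
    exact ⟨fun i => by simpa using Q.one_mem, Subgroup.mem_top _⟩
  have h3 := Subgroup.commutator_mem_commutator h1 h2
  convert h3 using 1
  apply wr_ext
  · intro i
    fin_cases i <;> simp [commutatorElement_def, permAut_apply]
  · simp [commutatorElement_def]

/-- [C4] -/
theorem exists_good_one {F : Type*} [Field F] [Fintype F] (hF : Fintype.card F % 4 = 1) :
    ∃ S : Subgroup (GL (Fin 2) F), IsPGroup 2 S ∧
      (Nat.card (GL (Fin 2) F)).factorization 2 = (Nat.card S).factorization 2 ∧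
      ∀ A ∈ S, ∃ c ∈ ⁅S, S⁆, A ^ 2 = scalar (Fin 2) (det A) * c := by
  classical
  have : Fact (Nat.Prime 2) := ⟨Nat.prime_two⟩
  obtain ⟨Φ, hinj, hdet, hsc⟩ := exists_embed_mon2 F
  obtain ⟨Q1⟩ : Nonempty (Sylow 2 Fˣ) := inferInstance
  have hcardW : Nat.card (stdSub 2 (Q1 : Subgroup Fˣ) ⊤) =
      2 ^ (2 * (Nat.card Fˣ).factorization 2 + 1) := by
    rw [card_stdSub, Sylow.card_eq_multiplicity, Subgroup.card_top, Nat.card_perm]
    simp only [Nat.card_eq_fintype_card, Fintype.card_fin]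
    rw [← pow_mul, pow_succ, mul_comm 2]
    rfl
  refine ⟨(stdSub 2 (Q1 : Subgroup Fˣ) ⊤).map Φ, (IsPGroup.of_card hcardW).map Φ, ?_, ?_⟩
  · rw [Subgroup.card_map_of_injective hinj, hcardW, val_gl_one hF 2, val_wr]
    simp [Finset.sum_range_succ, Nat.Prime.factorization_self Nat.prime_two]
  · rintro _ ⟨w, hw, rfl⟩
    rw [SetLike.mem_coe, mem_stdSub] at hw
    rw [← Subgroup.map_commutator]
    rcases perm_fin_two w.right with h1 | h1
    · refine ⟨_, ⟨_, kx_mem (Q1 : Subgroup Fˣ) (w.left 0 * (w.left 1)⁻¹)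
        (Subgroup.mul_mem _ (hw.1 0) (Subgroup.inv_mem _ (hw.1 1))), rfl⟩, ?_⟩
      rw [hdet, h1, map_one, one_mul, ← hsc, ← map_pow, ← map_mul]
      congr 1
      apply wr_ext
      · intro i
        fin_cases i
        · have e : w.left 0 * w.left 0 = w.left 0 * w.left 1 * (w.left 0 * (w.left 1)⁻¹) := by
            rw [mul_comm (w.left 0) (w.left 1)⁻¹, mul_assoc, mul_inv_cancel_left]
          simpa [pow_two, h1, Fin.prod_univ_two] using e
        · have e : w.left 1 * w.left 1 = w.left 0 * w.left 1 * (w.left 1 * (w.left 0)⁻¹) := by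
            rw [mul_comm (w.left 0) (w.left 1), mul_comm (w.left 1) (w.left 0)⁻¹, mul_assoc,
              mul_inv_cancel_left]
          simpa [pow_two, h1, Fin.prod_univ_two] using e
      · simp [pow_two, h1]
    · refine ⟨_, ⟨_, kx_mem (Q1 : Subgroup Fˣ) (-1) (neg_one_mem_sylow Q1), rfl⟩, ?_⟩
      rw [hdet, h1, sgnU_swap, ← hsc, ← map_pow, ← map_mul]
      congr 1
      apply wr_ext
      · intro i
        fin_cases i
        · simp [pow_two, h1, permAut_apply, Fin.prod_univ_two]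
        · simp [pow_two, h1, permAut_apply, Fin.prod_univ_two, mul_comm]
      · simp [pow_two, h1]

end Cfsg.Agent.Lib.Helper58.G2Syl
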