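import Cfsg.Agent.Lib.Helper58.G2Syl.Defs
import Cfsg.Agent.Lib.Helper65.WrSyl.T1
import Cfsg.Agent.Lib.Helper12.WrSyl.T2

set_option autoImplicit false

namespace Cfsg.Agent.Lib.Helper58.G2Syl

open Cfsg Cfsg.Agent.Lib.Helper58.WrSyl Cfsg.Agent.Lib.Helper65.WrSyl Cfsg.Agent.Lib.Helper12.WrSyl

/-- [X3] -/
theorem SylPC2.of_equiv {G H : Type*} [Group G] [Group H] [Finite H] (e : G ≃* H) (h : SylPC2 H) :
    SylPC2 G := by
  intro P
  have : Fact (Nat.Prime 2) := ⟨Nat.prime_two⟩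
  have : Finite G := Finite.of_equiv H e.symm.toEquiv
  obtain ⟨T⟩ : Nonempty (Sylow 2 H) := inferInstance
  obtain ⟨f⟩ := sylow_equiv 2 e.symm.toMonoidHom e.symm.injective
    (by rw [Nat.card_congr e.toEquiv]) P T
  exact PowComm.of_equiv f.symm (h T)

end Cfsg.Agent.Lib.Helper58.G2Syl
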