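import Cfsg.Agent.Lib.Helper58.G2Syl.Defs
import Cfsg.Agent.Lib.Helper58.G2Syl.C4
import Cfsg.Agent.Lib.Helper58.G2Syl.X3
import Cfsg.Agent.Lib.Helper64.G2Syl.A5
import Cfsg.Agent.Lib.Helper2.G2Syl.A7
import Cfsg.Agent.Lib.Helper2.G2Syl.N2
import Cfsg.Agent.Lib.Helper63.G2Syl.A6c
import Cfsg.Agent.Lib.Helper91.G2Syl.B2
import Cfsg.Agent.Lib.Helper63.G2Syl.B3
import Cfsg.Agent.Lib.Helper91.G2Syl.B4
import Cfsg.Agent.Lib.Helper91.G2Syl.B5
import Cfsg.Agent.Lib.Helper64.G2Syl.C2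
import Cfsg.Agent.Lib.Helper64.G2Syl.C3
import Cfsg.Agent.Lib.Helper54.G2Syl.C5
import Cfsg.Agent.Lib.Helper73.G2Syl.C6
import Cfsg.Agent.Lib.Helper97.G2Syl.E0
import Cfsg.Agent.Lib.Helper54.G2Syl.X1
import Cfsg.Agent.Lib.Helper54.G2Syl.X2
import Cfsg.Agent.Lib.Helper23.WrSyl.VG
import Cfsg.Agent.Lib.Helper12.WrSyl.T2

set_option autoImplicit false

namespace Cfsg.Agent.Lib.Helper58.G2Syl

open Cfsg Cfsg.Lie Cfsg.Agent.Lib.Helper58.WrSyl Cfsg.Agent.Lib.Helper23.WrSyl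
  Cfsg.Agent.Lib.Helper12.WrSyl
open Cfsg.Agent.Lib.Helper64.G2Syl Cfsg.Agent.Lib.Helper2.G2Syl Cfsg.Agent.Lib.Helper63.G2Syl
  Cfsg.Agent.Lib.Helper91.G2Syl Cfsg.Agent.Lib.Helper54.G2Syl Cfsg.Agent.Lib.Helper73.G2Syl
  Cfsg.Agent.Lib.Helper97.G2Syl
open scoped MatrixGroups
open Matrix.GeneralLinearGroup (scalar det)

theorem val_autO_le {F : Type*} [Field F] [Fintype F] (hF : Odd (Fintype.card F)) :
    (Nat.card (AutO F)).factorization 2 ≤ 2 * (Fintype.card F ^ 2 - 1).factorization 2 := by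
  have h1 : 1 < Fintype.card F := Fintype.one_lt_card
  obtain ⟨ρ, hρ⟩ := stab_embed F
  have hdvd : Nat.card (StabE F) ∣ Nat.card (Matrix.SpecialLinearGroup (Fin 3) F) :=
    Subgroup.card_dvd_of_injective ρ hρ
  have hle : (Nat.card (StabE F)).factorization 2 ≤
      (Nat.card (Matrix.SpecialLinearGroup (Fin 3) F)).factorization 2 :=
    (Nat.factorization_le_iff_dvd Nat.card_pos.ne' Nat.card_pos.ne').2 hdvd 2
  have hsl := val_sl (F := F) 3 (by norm_num)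
  have hgl := val_gl hF 3
  have har := val_arith hF h1
  have hI : Nat.card (Idem F) ≠ 0 := by
    rw [card_Idem hF]; positivity
  rw [card_autO, Nat.factorization_mul hI Nat.card_pos.ne', Finsupp.add_apply, card_Idem hF]
  simp only [Finset.sum_range_succ, Finset.sum_range_zero, zero_add, pow_one, Nat.reduceAdd] at hgl
  omega

theorem sylPC2_autO {F : Type*} [Field F] [Fintype F] (hF : Odd (Fintype.card F)) :
    SylPC2 (AutO F) := by
  classical
  obtain ⟨S, hS, hval, hP2⟩ : ∃ S : Subgroup (GL (Fin 2) F), IsPGroup 2 S ∧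
      (Nat.card (GL (Fin 2) F)).factorization 2 = (Nat.card S).factorization 2 ∧
      ∀ A ∈ S, ∃ c ∈ ⁅S, S⁆, A ^ 2 = scalar (Fin 2) (det A) * c := by
    have h4 : Fintype.card F % 4 = 1 ∨ Fintype.card F % 4 = 3 := by
      obtain ⟨k, hk⟩ := hF
      omega
    rcases h4 with h | h
    · exact exists_good_one h
    · exact exists_good_three h
  obtain ⟨Φ, hΦ⟩ := exists_Phi F
  obtain ⟨D, hD, hgen⟩ := exists_det_gen S
  have hker : ∀ A B, Φ (A, B) = 1 → ∃ l : Fˣ, A = scalar (Fin 2) l ∧ B = scalar (Fin 2) l := by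
    intro A B h
    apply phiFun_ker
    intro x
    rw [← hΦ, h]
    rfl
  have hsc : ∀ l : Fˣ, Φ (scalar (Fin 2) l, scalar (Fin 2) l) = 1 := by
    intro l
    ext x : 1
    rw [hΦ, phiFun_scalar]
    rfl
  set T := fibSub (det : GL (Fin 2) F →* Fˣ) S with hTdef
  have hle : T.map Φ ≤ AutO F := by
    rintro _ ⟨⟨A, B⟩, hAB, rfl⟩
    rw [mem_AutO]
    intro x y
    rw [hΦ, hΦ, hΦ]
    exact phiFun_mul A B hAB.2.2 x y
  have hpc : PowComm 2 (T.map Φ) := powComm_map_fib Φ hsc S D hD hgen hP2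
  have hp : IsPGroup 2 (T.map Φ) := (isPGroup_fib _ S hS).map Φ
  have e := Subgroup.subgroupOfEquivOfLe hle
  refine sylPC2_of_subgroup ((T.map Φ).subgroupOf (AutO F)) (hp.comap_subtype) ?_
    (PowComm.of_equiv e.symm hpc)
  rw [Nat.card_congr e.toEquiv]
  have h1 : 2 * (Nat.card S).factorization 2 ≤
      (Nat.card T).factorization 2 + (Nat.card Fˣ).factorization 2 :=
    val_fib (det : GL (Fin 2) F →* Fˣ) S
  have h2 := val_map Φ hker T
  have h3 := val_autO_le hF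
  have hgl := val_gl hF 2
  rw [Nat.card_eq_fintype_card (α := Fˣ), Fintype.card_units] at h1
  simp only [Finset.sum_range_succ, Finset.sum_range_zero, zero_add, pow_one, Nat.reduceAdd] at hgl
  omega

theorem rowS4632 {F : Type*} [Field F] [Fintype F] (hF : Odd (Fintype.card F)) :
    SylPC2 (G2 F) := by
  obtain ⟨e⟩ := g2_equiv_autO F
  exact SylPC2.of_equiv e (sylPC2_autO hF)

end Cfsg.Agent.Lib.Helper58.G2Syl
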